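import Cfsg.Agent.H452.RC.DSwapA
import Cfsg.Agent.H380.RC.EStmt

/-!
# S3510, family E (unitary groups): the rule D (helper452)

* `dg hij t` : diagonal elements of `SL_d`; `exists_y`;
* `dswap_main : DSwapStmt`, `d_main : DStmt`.
-/

set_option autoImplicit false
set_option linter.unusedSectionVars false

namespace Cfsg.Agent.H452.RC

open Matrix Cfsg Module Cfsg.Agent.LieClassical.HermBasic Cfsg.Agent.LieClassical.HermSiegel
  Cfsg.Agent.ClassicalGeometry.PSUAutBasic
open Cfsg.Agent.H380.RC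
open Cfsg.Agent.H189.SN (Im Pm Im_mulVec Pm_mulVec)

section dg

variable {F : Type*} [Field F] {d : ℕ}

/-- diagonal elements -/
noncomputable def dg {i j : Fin d} (hij : i ≠ j) : Fˣ →* Matrix.SpecialLinearGroup (Fin d) F where
  toFun t := Matrix.SpecialLinearGroup.diag2n hij (t : F) t.ne_zero
  map_one' := by
    apply Subtype.ext
    rw [Matrix.SpecialLinearGroup.diag2n_coe, Matrix.SpecialLinearGroup.coe_one, ← Matrix.diagonal_one]
    congr 1
    funext k
    simp
  map_mul' s t := by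
    apply Subtype.ext
    rw [Matrix.SpecialLinearGroup.coe_mul, Matrix.SpecialLinearGroup.diag2n_coe, Matrix.SpecialLinearGroup.diag2n_coe,
      Matrix.SpecialLinearGroup.diag2n_coe, Matrix.diagonal_mul_diagonal]
    congr 1
    funext k
    by_cases h1 : k = i
    · simp [h1]
    · by_cases h2 : k = j
      · simp [h2, hij.symm, mul_comm]
      · simp [h1, h2]

theorem dg_i {i j : Fin d} (hij : i ≠ j) (t : Fˣ) :
    (dg hij t).1 *ᵥ (Pi.single i 1 : Fin d → F) = (t : F) • (Pi.single i 1 : Fin d → F) := by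
  show (Matrix.SpecialLinearGroup.diag2n hij (t : F) t.ne_zero).1 *ᵥ _ = _
  rw [Matrix.SpecialLinearGroup.diag2n_coe]
  funext k
  rw [Matrix.mulVec_diagonal, Pi.smul_apply, smul_eq_mul]
  by_cases h1 : k = i
  · simp [h1]
  · rw [Pi.single_eq_of_ne h1, mul_zero, mul_zero]

theorem dg_j {i j : Fin d} (hij : i ≠ j) (t : Fˣ) :
    (dg hij t).1 *ᵥ (Pi.single j 1 : Fin d → F) = (t⁻¹ : F) • (Pi.single j 1 : Fin d → F) := by
  show (Matrix.SpecialLinearGroup.diag2n hij (t : F) t.ne_zero).1 *ᵥ _ = _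
  rw [Matrix.SpecialLinearGroup.diag2n_coe]
  funext k
  rw [Matrix.mulVec_diagonal, Pi.smul_apply, smul_eq_mul]
  by_cases h1 : k = j
  · simp [h1, hij.symm]
  · rw [Pi.single_eq_of_ne h1, mul_zero, mul_zero]

end dg

section main

variable {G Ω : Type*} [Group G] [MulAction G Ω] {N : Subgroup G} {F : Type*} [Field F] [Fintype F] {n d q : ℕ}
  {U : UEnv G Ω N F n q} {b b' : Fin d → (Fin n → F)}

/-- an element of prime order prime to `q` of `SL(W)` with an eigenvector in `W` -/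
theorem exists_y [Finite G] (hd : 2 ≤ d) (h : DB q b b') : ∃ (a : Matrix.SpecialLinearGroup (Fin d) F) (r : ℕ)
    (u : Fin d → F) (c : F), u ≠ 0 ∧ a.1 *ᵥ u = c • u ∧ r.Prime ∧ r.Coprime q ∧
      U.el (kap U.hF h a) ^ r = 1 ∧ U.el (kap U.hF h a) ≠ 1 := by
  classical
  have hF := U.hF
  have hF4 : 4 ≤ Fintype.card F := by
    rw [hF]
    have := two_le hF
    nlinarith
  let i : Fin d := ⟨0, by omega⟩
  let j : Fin d := ⟨1, by omega⟩
  have hij : i ≠ j := by
    intro h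
    have := congrArg Fin.val h
    simp [i, j] at this
  obtain ⟨a, ha0, ha1, ha2⟩ : ∃ a : F, a ≠ 0 ∧ a ≠ 1 ∧ a ≠ -1 := by
    have h1 : ({0, 1, -1} : Finset F).card < Fintype.card F :=
      lt_of_le_of_lt Finset.card_le_three (by omega)
    obtain ⟨a, ha⟩ := Finset.exists_mem_notMem_of_card_lt_card (s := ({0, 1, -1} : Finset F)) (t := Finset.univ)
      (by rwa [Finset.card_univ])
    have h2 := ha.2
    simp only [Finset.mem_insert, Finset.mem_singleton, not_or] at h2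
    exact ⟨a, h2.1, h2.2.1, h2.2.2⟩
  let t : Fˣ := Units.mk0 a ha0
  set κ : Matrix.SpecialLinearGroup (Fin d) F →* G := U.el.comp (kap U.hF h) with hκ
  have hz1 : κ (dg hij t) ≠ 1 := by
    intro h1
    obtain ⟨c, hc⟩ := (U.lft_el (kap U.hF h (dg hij t))).eq_one_iff.1 h1
    have e1 := hc (Im b *ᵥ Pi.single i 1)
    have e2 := hc (Im b *ᵥ Pi.single j 1)
    rw [act_kap_W, dg_i, ← mulVec_smul] at e1
    rw [act_kap_W, dg_j, ← mulVec_smul] at e2
    have f1 := congrFun (h.inj1 e1) i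
    have f2 := congrFun (h.inj1 e2) j
    simp only [Pi.smul_apply, Pi.single_eq_same, smul_eq_mul, mul_one] at f1 f2
    have f3 : a = c := f1
    have f4 : a⁻¹ = c := f2
    have f5 : a * a = 1 := by
      nth_rewrite 2 [f3]
      rw [← f4, mul_inv_cancel₀ ha0]
    have f6 : (a - 1) * (a + 1) = 0 := by linear_combination f5
    rcases mul_eq_zero.1 f6 with h4 | h4
    · exact ha1 (sub_eq_zero.1 h4)
    · exact ha2 (eq_neg_of_add_eq_zero_left h4)
  set z := κ (dg hij t) with hz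
  have ho1 : orderOf z ≠ 1 := fun h1 => hz1 (orderOf_eq_one_iff.1 h1)
  obtain ⟨r, hr, hrd⟩ := Nat.exists_prime_and_dvd ho1
  have hcard : z ^ (q ^ 2 - 1) = 1 := by
    rw [hz, ← map_pow, ← map_pow]
    have h1 : t ^ (q ^ 2 - 1) = 1 := by
      have h2 : Fintype.card Fˣ = q ^ 2 - 1 := by rw [Fintype.card_units, hF]
      rw [← h2]
      exact pow_card_eq_one
    rw [h1, map_one, map_one]
  have hrq : r.Coprime q := by
    rw [Nat.Prime.coprime_iff_not_dvd hr]
    intro h1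
    have h2 : r ∣ q ^ 2 - 1 := hrd.trans (orderOf_dvd_of_pow_eq_one hcard)
    have h3 : r ∣ q ^ 2 := dvd_pow h1 two_ne_zero
    have h4 : 1 ≤ q ^ 2 := Nat.one_le_pow _ _ (q_pos hF)
    have h5 : r ∣ q ^ 2 - (q ^ 2 - 1) := Nat.dvd_sub h3 h2
    have h6 : q ^ 2 - (q ^ 2 - 1) = 1 := by omega
    rw [h6] at h5
    exact hr.one_lt.ne' (Nat.dvd_one.1 h5)
  have ho : orderOf (z ^ (orderOf z / r)) = r := orderOf_pow_orderOf_div (orderOf_pos z).ne' hrd
  have hzk : z ^ (orderOf z / r) = U.el (kap U.hF h (dg hij (t ^ (orderOf z / r)))) := by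
    rw [hz, ← map_pow, ← map_pow]
    rfl
  refine ⟨dg hij (t ^ (orderOf z / r)), r, Pi.single i 1, ((t ^ (orderOf z / r) : Fˣ) : F), ?_, dg_i hij _, hr, hrq,
    ?_, ?_⟩
  · intro h1
    have h2 := congrFun h1 i
    rw [Pi.single_eq_same] at h2
    exact one_ne_zero h2
  · rw [← hzk]
    nth_rewrite 2 [← ho]
    exact pow_orderOf_eq_one _
  · rw [← hzk]
    intro h1
    rw [h1, orderOf_one] at ho
    exact hr.one_lt.ne ho

theorem comm_of_scal (h : DB q b b') {x : G} {f : (Fin n → F) → (Fin n → F)} (hx : U.Lft x f) {l l' : F}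
    (hl : ∀ c, f (Im b *ᵥ c) = l • (Im b *ᵥ c)) (hl' : ∀ c, f (Im b' *ᵥ c) = l' • (Im b' *ᵥ c))
    (p : Matrix.SpecialLinearGroup (Fin d) F) : x * U.el (kap U.hF h p) = U.el (kap U.hF h p) * x := by
  have h1 : x * U.el (kap U.hF h p) * x⁻¹ = U.el (kap U.hF h p) := by
    apply hx.conj_el
    intro v
    obtain ⟨c, c', rfl⟩ := h.span v
    rw [act_kap, Ind.map_add hx, Ind.map_add hx, hl, hl', hl, hl', act_add, act_smul, act_smul, act_kap_W,
      act_kap_W']
  rw [mul_inv_eq_iff_eq_mul] at h1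
  exact h1

end main

/-- **Box E5' (D with swaps)** -/
theorem dswap_main : DSwapStmt := by
  intro G Ω _ _ _ _ _ N F _ _ n q U ι _ x f r hfam hcov ⟨W, W', hW, hW', hc, hst, hRC⟩
  classical
  have hF := U.hF
  have hF4 : 4 ≤ Fintype.card F := by
    rw [hF]
    have := two_le hF
    nlinarith
  obtain ⟨d, hd, hRC⟩ : ∃ d, finrank F W = d ∧
      (H106.RC.RC (Matrix.ProjectiveSpecialLinearGroup (Fin d) F) ∨
        ∀ i j : ι, ¬ ScalOn (f i) W → ¬ ScalOn (f j) W → i = j) := ⟨_, rfl, hRC⟩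
  obtain ⟨b, b', h, hbW, hWb, hbW', hWb'⟩ := exists_db hF hW hW' hc hd
  have hd2 : 2 ≤ d := by
    have h1 := Submodule.finrank_add_eq_of_isCompl hc
    rw [finrank_fin_fun, hd] at h1
    have h2 : finrank F W' ≤ d := by
      have h3 : W' ≤ LinearMap.range (Matrix.mulVecLin (Im b')) := by
        intro v hv
        obtain ⟨c, hc⟩ := hWb' v hv
        exact ⟨c, hc.symm⟩
      have h4 := Submodule.finrank_mono h3
      have h5 := LinearMap.finrank_range_le (Matrix.mulVecLin (Im b'))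
      rw [finrank_fin_fun] at h5
      exact h4.trans h5
    have := U.hn
    omega
  have hdpos : 0 < d := by omega
  -- coordinates
  have hst1 : ∀ i, (Stab (f i) W ∧ Stab (f i) W') →
      (∀ c, ∃ c₁, f i (Im b *ᵥ c) = Im b *ᵥ c₁) ∧ ∀ c, ∃ c₁, f i (Im b' *ᵥ c) = Im b' *ᵥ c₁ := by
    intro i hi
    exact ⟨fun c => hWb _ (hi.1 _ (hbW c)), fun c => hWb' _ (hi.2 _ (hbW' c))⟩
  have hst2 : ∀ i, ((∀ c, ∃ c₁, f i (Im b *ᵥ c) = Im b *ᵥ c₁) ∧ ∀ c, ∃ c₁, f i (Im b' *ᵥ c) = Im b' *ᵥ c₁) ∨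
      ((∀ c, ∃ c₁, f i (Im b *ᵥ c) = Im b' *ᵥ c₁) ∧ ∀ c, ∃ c₁, f i (Im b' *ᵥ c) = Im b *ᵥ c₁) := by
    intro i
    rcases hst i with hi | ⟨h1, h2, -⟩
    · exact Or.inl (hst1 i hi)
    · exact Or.inr ⟨fun c => hWb' _ (h1 _ (hbW c)), fun c => hWb _ (h2 _ (hbW' c))⟩
  -- scalars on `W`
  have hscal : ∀ i, (∃ l : F, ∀ c, f i (Im b *ᵥ c) = l • (Im b *ᵥ c)) → (Stab (f i) W ∧ Stab (f i) W') →
      ∃ l l' : F, l * l' ^ q = 1 ∧ (∀ c, f i (Im b *ᵥ c) = l • (Im b *ᵥ c)) ∧
        ∀ c, f i (Im b' *ᵥ c) = l' • (Im b' *ᵥ c) := by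
    rintro i ⟨l, hl⟩ hi
    obtain ⟨ρ, hs, hh⟩ := Ind.exists_rho (hfam.lft i)
    obtain ⟨l', h1, h2, -⟩ := scal_dual hF hdpos h (Ind.injective (hfam.lft i)) hs hh hl (hst1 i hi).2
    exact ⟨l, l', h1, hl, h2⟩
  set κ : Matrix.SpecialLinearGroup (Fin d) F →* G := U.el.comp (kap U.hF h) with hκ
  let π : Matrix.SpecialLinearGroup (Fin d) F →* Matrix.ProjectiveSpecialLinearGroup (Fin d) F :=
    QuotientGroup.mk' (Subgroup.center (Matrix.SpecialLinearGroup (Fin d) F))
  have hπk : π.ker = Subgroup.center (Matrix.SpecialLinearGroup (Fin d) F) := QuotientGroup.ker_mk' _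
  have hperf := sl_perf (F := F) hd2 hF4
  have hsimple : IsSimpleGroup (Matrix.ProjectiveSpecialLinearGroup (Fin d) F) := by
    have : Nontrivial (Fin d) := Fin.nontrivial_iff_two_le.2 hd2
    exact LieClassical.SLGen.psl_isSimpleGroup_of_perfect (by rw [commutator_def]; exact hperf)
  have hnc : ¬ IsMulCommutative (Matrix.ProjectiveSpecialLinearGroup (Fin d) F) := by
    have : Nontrivial (Matrix.ProjectiveSpecialLinearGroup (Fin d) F) := hsimple.toNontrivial
    apply nc_of_perfect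
    have hsur : Function.Surjective π := QuotientGroup.mk'_surjective _
    have h4 : Subgroup.map π ⊤ = ⊤ := Subgroup.map_top_of_surjective _ hsur
    rw [commutator_def, ← h4, ← Subgroup.map_commutator, hperf]
  have hk : κ.ker ≤ π.ker := by
    intro a ha
    rw [hπk, Subgroup.mem_center_iff]
    have h1 : U.el (kap U.hF h a) = 1 := ha
    rw [U.el_eq_one] at h1
    obtain ⟨c, -, -, hc⟩ := exists_scalar_of_mem_center hF U.hn h1
    have h2 : ∀ e : Fin d → F, a.1 *ᵥ e = c • e := by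
      intro e
      apply h.inj1
      rw [← act_kap_W hF h, hc, mulVec_smul]
    intro g
    apply Subtype.ext
    rw [Matrix.SpecialLinearGroup.coe_mul, Matrix.SpecialLinearGroup.coe_mul]
    apply ext_of_mulVec_single
    intro i
    rw [← mulVec_mulVec, ← mulVec_mulVec, h2, h2, mulVec_smul]
  -- the M-rule
  have hM : ∀ ω : Ω, (∀ p, κ p • ω = ω) ∨ ∃ j, (∀ p, x j * κ p = κ p * x j) ∧ x j • ω = ω := by
    intro ω
    refine mrule_hom_pf hsimple hnc κ hperf π (QuotientGroup.mk'_surjective _) hk hπk.le hfam.pf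
      (fun i p => norm_kap hd2 h (hfam.lft i) (hst2 i) p) ?_ hcov ω
    rcases hRC with hRC | hRC
    · exact Or.inl hRC
    · right
      have hcm : ∀ i, ScalOn (f i) W → ∀ p, x i * κ p = κ p * x i := by
        rintro i ⟨l, hl⟩ p
        have hi : Stab (f i) W ∧ Stab (f i) W' := by
          rcases hst i with hi | ⟨h1, h2, w, hw, hw1⟩
          · exact hi
          · exfalso
            apply hw1
            rw [hl w hw, herm_smul_right, hW w hw w hw, mul_zero]
        obtain ⟨l, l', -, h1, h2⟩ := hscal i ⟨l, fun c => hl _ (hbW c)⟩ hi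
        exact comm_of_scal h (hfam.lft i) h1 h2 p
      by_cases hex : ∃ i, ¬ ScalOn (f i) W
      · obtain ⟨i₀, hi₀⟩ := hex
        refine ⟨i₀, fun i hi p => hcm i ?_ p⟩
        by_contra hcon
        exact hi (hRC i i₀ hcon hi₀)
      · push Not at hex
        obtain ⟨i₀, -⟩ := hcov ω
        exact ⟨i₀, fun i _ p => hcm i (hex i) p⟩
  -- the members centralising `SL(W)`
  have hJ : ∀ j, (∀ p, x j * κ p = κ p * x j) → (r j).Coprime q ∧ ∃ l : F, ∀ c, f j (Im b *ᵥ c) = l • (Im b *ᵥ c) := by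
    intro j hj
    have hcomm : ∀ a v, f j (act (kap hF h a) v) = act (kap hF h a) (f j v) :=
      lift_comm hperf (kap hF h) (hfam.lft j) hj
    have hi : Stab (f j) W ∧ Stab (f j) W' := by
      rcases hst j with hi | ⟨h1, h2, w, hw, hw1⟩
      · exact hi
      · exfalso
        apply hw1
        obtain ⟨c, rfl⟩ := hWb w hw
        exact herm_eq_zero hF hd2 h (Ind.map_add (hfam.lft j)) hcomm c
    have h1 := scal_of_comm hF hd2 h (Ind.map_add (hfam.lft j)) hcomm (hst1 j hi).1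
    refine ⟨?_, h1⟩
    obtain ⟨l, l', h2, h3, h4⟩ := hscal j h1 hi
    by_contra hcop
    -- `r j` is the characteristic
    obtain ⟨p, k, hp, hchar, hk', hk0⟩ := exists_prime_pow hF
    have hrp : r j = p := by
      have h5 : r j ∣ q := by
        by_contra h6
        exact hcop ((Nat.Prime.coprime_iff_not_dvd (hfam.pf.prime j)).2 h6)
      rw [hk'] at h5
      exact (Nat.prime_dvd_prime_iff_eq (hfam.pf.prime j) hp).1 ((hfam.pf.prime j).dvd_of_dvd_pow h5)
    obtain ⟨m, hm⟩ := hfam.ord j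
    have hiter : ∀ (s : ℕ) c, (f j)^[s] (Im b *ᵥ c) = l ^ s • (Im b *ᵥ c) := by
      intro s
      induction s with
      | zero => intro c; rw [pow_zero, one_smul]; rfl
      | succ s ih =>
        intro c
        rw [Function.iterate_succ_apply, h3, ← mulVec_smul, ih, mulVec_smul, smul_smul, pow_succ]
    have hl1 : l = 1 := by
      have h5 := hm (Im b *ᵥ Pi.single ⟨0, hdpos⟩ 1)
      rw [hiter, ← mulVec_smul] at h5
      have h6 := congrFun (h.inj1 h5) ⟨0, hdpos⟩
      rw [Pi.smul_apply, Pi.single_eq_same, smul_eq_mul, mul_one, hrp] at h6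
      have := Fact.mk hp
      have h7 : (l - 1) ^ p ^ m = 0 := by rw [sub_pow_char_pow, h6, one_pow, sub_self]
      exact sub_eq_zero.1 (pow_eq_zero_iff (pow_pos hp.pos m).ne' |>.1 h7)
    have hl'1 : l' = 1 := by
      rw [hl1, one_mul] at h2
      apply (pow_q_inj hF).1
      rw [h2, one_pow]
    apply hfam.pf.ne j
    rw [(hfam.lft j).eq_one_iff]
    refine ⟨1, fun v => ?_⟩
    obtain ⟨c, c', rfl⟩ := h.span v
    rw [Ind.map_add (hfam.lft j), h3, h4, hl1, hl'1, one_smul, one_smul, one_smul]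
  -- the new family
  obtain ⟨a, ry, u, cy, hu0, hau, hry, hryq, hy1, hy2⟩ := exists_y (U := U) hd2 h
  have hau' : act (kap hF h a) (Im b *ᵥ u) = cy • (Im b *ᵥ u) := by rw [act_kap_W, hau, mulVec_smul]
  let J := {j : ι // ∀ p, x j * κ p = κ p * x j}
  refine U.point (ι := Option J) (x := fun o => o.elim (U.el (kap hF h a)) fun j => x j.1)
    (f := fun o => o.elim (act (kap hF h a)) fun j => f j.1) (r := fun o => o.elim ry fun j => r j.1)
    ?_ ?_ ?_ ?_ ?_ ?_ ?_ (u := Im b *ᵥ u) ?_ (hW _ (hbW u) _ (hbW u)) ?_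
  · rintro (_ | j)
    · exact hry
    · exact hfam.pf.prime j.1
  · rintro (_ | j)
    · exact hryq
    · exact (hJ j.1 j.2).1
  · rintro (_ | j)
    · exact hy1
    · exact hfam.pf.pow j.1
  · rintro (_ | j)
    · exact hy2
    · exact hfam.pf.ne j.1
  · rintro (_ | i) (_ | j)
    · rfl
    · exact (j.2 a).symm
    · exact i.2 a
    · exact hfam.pf.comm i.1 j.1
  · rintro (_ | j)
    · exact U.lft_el _
    · exact hfam.lft j.1
  · intro ω
    rcases hM ω with h1 | ⟨j, hj, h1⟩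
    · exact ⟨none, h1 a⟩
    · exact ⟨some ⟨j, hj⟩, h1⟩
  · intro h1
    apply hu0
    apply h.inj1
    rw [h1, mulVec_zero]
  · rintro (_ | j)
    · exact ⟨cy, hau'⟩
    · obtain ⟨-, l, hl⟩ := hJ j.1 j.2
      exact ⟨l, hl u⟩

/-- **Box E5 (D)** -/
theorem d_main : DStmt := by
  intro G Ω _ _ _ _ _ N F _ _ n q U ι _ x f r hfam hcov ⟨W, W', hW, hW', hc, hst, hRC⟩
  exact dswap_main U x f r hfam hcov ⟨W, W', hW, hW', hc, fun i => Or.inl (hst i), hRC⟩

end Cfsg.Agent.H452.RC
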