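import Cfsg.Agent.H452.RC.Dec
import Cfsg.Agent.H380.RC.Point

/-!
# S3510, family E (unitary groups): DEC, no hypotheses (helper452)

* `rootStmt` ; `dec_main : DecStmt`.
-/

set_option autoImplicit false

namespace Cfsg.Agent.H452.RC

open Cfsg.Agent.H380.RC

/-- the root rule -/
theorem rootStmt : RootStmt := by
  intro G Ω _ _ _ _ _ N F _ _ n q U κ _ x r f hr hrq hx hne hc hf e he0 he hfe μ hμ hμ0 hcov
  exact U.root hr hrq hx hne hc hf he0 he hfe hμ hμ0 hcov

/-- **Box E4 (DEC)** -/
theorem dec_main : DecStmt := dec rootStmt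

end Cfsg.Agent.H452.RC
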