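import Cfsg.Agent.H452.RC.SubU
import Cfsg.Agent.H380.RC.EStmt

/-!
# S3510, family E (unitary groups): the rule DEC (helper452)

* `exists_basis`, `exists_sing` : orthonormal basis and singular vector of a nondegenerate subspace;
* `RootStmt` : the root rule (helper380, `Point.lean`);
* `dec` : `DecStmt`.
-/

set_option autoImplicit false
set_option linter.unusedSectionVars false

namespace Cfsg.Agent.H452.RC

open Matrix Cfsg Module Cfsg.Agent.LieClassical.HermBasic Cfsg.Agent.LieClassical.HermSiegel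
  Cfsg.Agent.LieClassical.HermGen Cfsg.Agent.LieClassical.SUBasic Cfsg.Agent.ClassicalGeometry.PSUAutBasic
  Cfsg.Agent.ClassicalGeometry.PSUAutCount Cfsg.Agent.LieClassical.FieldTransfer Cfsg.Agent.ClassicalGeometry
open Cfsg.Agent.H380.RC
open Cfsg.Agent.H189.SN (ON phi Im Im_mulVec phi_Im phi_perp phi_injective pr_phi_injective herm_Im herm_Im_perp
  decomp Im_injective exists_perp)

section

variable {F : Type*} [Field F] [Fintype F] {n m q : ℕ}

/-- orthonormal basis of a nondegenerate subspace -/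
theorem exists_basis (hF : Fintype.card F = q ^ 2) {A : Submodule F (Fin n → F)} (hA : NDeg q A)
    (hm : finrank F A = m) :
    ∃ b : Fin m → (Fin n → F), ON q b ∧ (∀ c, Im b *ᵥ c ∈ A) ∧ ∀ v ∈ A, ∃ c, v = Im b *ᵥ c := by
  obtain ⟨b, hbA, hb⟩ := HermOrtho.exists_orthonormal hF A hA hm
  refine ⟨b, hb, fun c => ?_, fun v hv => ?_⟩
  · rw [Im_mulVec]
    exact A.sum_mem fun i _ => A.smul_mem _ (hbA i)
  · refine ⟨fun i => hermForm n F q v (b i), ?_⟩
    rw [Im_mulVec]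
    exact HermOrtho.eq_sum_of_orthonormal A (by rw [hm, Fintype.card_fin]) hbA hb hv

/-- a singular vector -/
theorem exists_sing (hF : Fintype.card F = q ^ 2) (hm : 2 ≤ m) :
    ∃ e : Fin m → F, e ≠ 0 ∧ hermForm m F q e e = 0 := by
  obtain ⟨t, ht⟩ := exists_norm_eq hF (c := (-1 : F)) (by rw [neg_pow_q hF, one_pow])
  let i : Fin m := ⟨0, by omega⟩
  let j : Fin m := ⟨1, by omega⟩
  have hij : i ≠ j := by
    intro h
    have := congrArg Fin.val h
    simp [i, j] at this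
  refine ⟨Pi.single i 1 + Pi.single j t, ?_, ?_⟩
  · intro h
    have h1 := congrFun h i
    rw [Pi.add_apply, Pi.single_eq_same, Pi.single_eq_of_ne hij, add_zero, Pi.zero_apply] at h1
    exact one_ne_zero h1
  · rw [herm_add_left, herm_single_left, herm_single_left, Pi.add_apply, Pi.add_apply, Pi.single_eq_same,
      Pi.single_eq_same, Pi.single_eq_of_ne hij, Pi.single_eq_of_ne hij.symm, add_zero, zero_add, one_pow, ht]
    ring

/-- image of a transvection -/
theorem phi_transv (hF : Fintype.card F = q ^ 2) {b : Fin m → (Fin n → F)} (hb : ON q b) {e : Fin m → F}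
    (he : hermForm m F q e e = 0) (he' : hermForm n F q (Im b *ᵥ e) (Im b *ᵥ e) = 0) {μ : F} (hμ : μ + μ ^ q = 0) :
    phi hF hb (transv hF e he μ hμ) = transv hF (Im b *ᵥ e) he' μ hμ := by
  apply ext_act
  intro v
  obtain ⟨c, u, hu, rfl⟩ := decomp hb v
  rw [act_add, act_add, phi_Im, phi_perp hF hb _ hu, act_transv, act_transv, act_transv, mulVec_add, herm_Im hF hb,
    mulVec_smul, herm_Im_perp hF b e hu, mul_zero, zero_smul, add_zero]

end

/-- the root rule -/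
def RootStmt : Prop :=
  ∀ {G Ω : Type} [Group G] [Finite G] [Finite Ω] [Nonempty Ω] [MulAction G Ω] {N : Subgroup G} {F : Type} [Field F]
    [Fintype F] {n q : ℕ} (U : UEnv G Ω N F n q) {κ : Type} [Finite κ] (x : κ → G) (r : κ → ℕ)
    (f : κ → (Fin n → F) → (Fin n → F)),
    (∀ j, (r j).Prime) → (∀ j, (r j).Coprime q) → (∀ j, x j ^ r j = 1) → (∀ j, x j ≠ 1) →
    (∀ i j, x i * x j = x j * x i) → (∀ j, U.Lft (x j) (f j)) →
    ∀ (e : Fin n → F) (_ : e ≠ 0) (he : hermForm n F q e e = 0), (∀ j, ∃ c : F, f j e = c • e) →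
    ∀ (μ : F) (hμ : μ + μ ^ q = 0), μ ≠ 0 →
    (∀ ω : Ω, U.el (transv U.hF e he μ hμ) • ω = ω ∨ ∃ j, x j • ω = ω) → False

section

variable {G Ω : Type} [Group G] [Finite G] [Finite Ω] [Nonempty Ω] [MulAction G Ω] {N : Subgroup G} {F : Type} [Field F]
  [Fintype F] {n m q : ℕ}

/-- **DEC from the M-rule conclusion.** -/
theorem dec_of (hroot : RootStmt) (U : UEnv G Ω N F n q) {ι : Type} [Finite ι] (x : ι → G)
    (f : ι → (Fin n → F) → (Fin n → F)) (hne : ∀ i, x i ≠ 1) (hlft : ∀ i, U.Lft (x i) (f i))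
    (hcomm : ∀ i j, x i * x j = x j * x i) {b : Fin m → (Fin n → F)} (hb : ON q b) (hm : 2 ≤ m)
    (hS : ∀ i, (∀ y ∈ MM U hb, x i * y = y * x i) →
      (∃ c : F, ∀ d, f i (Im b *ᵥ d) = c • (Im b *ᵥ d)) ∧ ∃ r : ℕ, r.Prime ∧ r.Coprime q ∧ x i ^ r = 1)
    (hM : ∀ ω : Ω, MM U hb ≤ MulAction.stabilizer G ω ∨ ∃ j, (∀ y ∈ MM U hb, x j * y = y * x j) ∧ x j • ω = ω) :
    False := by
  classical
  obtain ⟨e, he0, he⟩ := exists_sing (F := F) (q := q) U.hF hm
  obtain ⟨μ, hμ0, hμ⟩ := exists_trace_zero_ne (F := F) (q := q) U.hF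
  have he' : hermForm n F q (Im b *ᵥ e) (Im b *ᵥ e) = 0 := by rw [herm_Im U.hF hb, he]
  have he1 : Im b *ᵥ e ≠ 0 := by
    intro h
    apply he0
    apply Im_injective hb
    change Im b *ᵥ e = Im b *ᵥ 0
    rw [h, mulVec_zero]
  have hS' : ∀ j : {i : ι // ∀ y ∈ MM U hb, x i * y = y * x i},
      ∃ r : ℕ, r.Prime ∧ r.Coprime q ∧ x j.1 ^ r = 1 := fun j => (hS j.1 j.2).2
  choose r hr1 hr2 hr3 using hS'
  refine hroot U (κ := {i : ι // ∀ y ∈ MM U hb, x i * y = y * x i}) (fun j => x j.1) r (fun j => f j.1) hr1 hr2 hr3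
    (fun j => hne _) (fun i j => hcomm _ _) (fun j => hlft _) (Im b *ᵥ e) he1 he' (fun j => ?_) μ hμ hμ0 (fun ω => ?_)
  · obtain ⟨⟨c, hc⟩, -⟩ := hS j.1 j.2
    exact ⟨c, hc e⟩
  · rcases hM ω with h | ⟨j, hj, h⟩
    · left
      apply h
      rw [← phi_transv U.hF hb he he' hμ]
      exact ph_mem U hb _
    · exact Or.inr ⟨⟨j, hj⟩, h⟩

end

/-- **DEC** -/
theorem dec (hroot : RootStmt) : DecStmt := by
  intro G Ω _ _ _ _ _ N F _ _ n q U ι _ x f r hfam hcov ⟨A, hA, hAtop, hA3, hA32, hst, hsc, hRC⟩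
  obtain ⟨b, hb, hbA, hAb⟩ := exists_basis U.hF hA rfl
  have hmn : finrank F A < n := by
    have h1 := Submodule.finrank_lt hAtop
    rwa [finrank_fin_fun] at h1
  have hinv : ∀ i j, ∃ c, f i (b j) = Im b *ᵥ c := by
    intro i j
    apply hAb
    apply hst i
    have h1 := hbA (Pi.single j 1)
    rwa [Im_mulVec, Finset.sum_eq_single j, Pi.single_eq_same, one_smul] at h1
    · intro k _ hk
      rw [Pi.single_eq_of_ne hk, zero_smul]
    · intro h
      exact absurd (Finset.mem_univ j) h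
  have hsimple : IsSimpleGroup (PSU (finrank F A) F q) :=
    LieClassical.HermSimple.isSimpleGroup_of_perfect U.hF hA3
      (LieClassical.HermPerfect.commutator_SU_eq_top U.hF hA3 hA32)
  refine dec_of hroot U x f hfam.pf.ne hfam.lft hfam.pf.comm hb (by omega) (fun i hi => ?_) (fun ω => ?_)
  · obtain ⟨c, hc⟩ := scalar_of_comm U hb hA3 hmn (hfam.lft i) (hinv i) hi
    refine ⟨⟨c, hc⟩, r i, hfam.pf.prime i, hsc i ⟨c, fun v hv => ?_⟩, hfam.pf.pow i⟩
    obtain ⟨d, rfl⟩ := hAb v hv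
    exact hc d
  · exact H106.RC.mrule_RC hsimple (Cfsg.Agent.H189.SN.psu_nc U.hF hA3 hA32) x r hfam.pf.prime hfam.pf.inj
      hfam.pf.pow hfam.pf.comm (MM U hb) (MM_perf U hb (LieClassical.HermPerfect.commutator_SU_eq_top U.hF hA3 hA32))
      (pi U hb hmn) (pi_surjective U hb hmn) (pi_ker U hb hmn)
      (fun i => mem_normalizer U hb (hfam.lft i) (hinv i)) hRC ω (fun m _ => hcov _)

end Cfsg.Agent.H452.RC
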