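import Cfsg.Agent.S0281
import Cfsg.Agent.H189.SN.Fam
import Cfsg.Agent.H106.RC.Defs
import Cfsg.Agent.LieClassical.SLGen

/-!
# `SU_2(q)`, `q ≥ 4` : perfect, simple modulo the centre, `PSU_2(q) = PSL_2(q)` (helper452)

* `comm_two`, `simple_two`, `nc_two`, `rc_two`.
-/

set_option autoImplicit false
set_option linter.unusedSectionVars false

namespace Cfsg.Agent.H452.RC

open Matrix Cfsg Cfsg.Agent.LieClassical.HermBasic Cfsg.Agent.ClassicalGeometry.PSUAutBasic

section gen

variable {G H : Type*} [Group G] [Group H]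

theorem map_center_eq (e : G ≃* H) : (Subgroup.center G).map (e : G →* H) = Subgroup.center H := by
  ext h
  rw [Subgroup.mem_map, Subgroup.mem_center_iff]
  constructor
  · rintro ⟨g, hg, rfl⟩ k
    rw [Subgroup.mem_center_iff] at hg
    have h1 := congrArg e (hg (e.symm k))
    rw [map_mul, map_mul, MulEquiv.apply_symm_apply] at h1
    exact h1
  · intro hh
    refine ⟨e.symm h, ?_, e.apply_symm_apply h⟩
    rw [Subgroup.mem_center_iff]
    intro g
    apply e.injective
    rw [map_mul, map_mul, MulEquiv.apply_symm_apply]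
    exact hh _

theorem commutator_top_of_equiv (e : G ≃* H) (h : commutator H = ⊤) : commutator G = ⊤ := by
  have h1 : Subgroup.map e.symm.toMonoidHom ⊤ = (⊤ : Subgroup G) :=
    Subgroup.map_top_of_surjective _ e.symm.surjective
  have h2 : Subgroup.map e.symm.toMonoidHom (commutator H) = commutator G := by
    rw [commutator_def, commutator_def, Subgroup.map_commutator, h1]
  rw [← h2, h, h1]

theorem nc_of_perfect [Nontrivial G] (h : commutator G = ⊤) : ¬ IsMulCommutative G := by
  intro hc
  have h1 : commutator G = ⊥ := by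
    rw [commutator_def, Subgroup.commutator_eq_bot_iff_le_centralizer]
    intro x _
    rw [Subgroup.mem_centralizer_iff]
    intro y _
    exact hc.is_comm.comm _ _
  exact bot_ne_top (h1.symm.trans h)

end gen

/-- `SL_2(K)` is perfect, `|K| ≥ 4` -/
theorem sl_perfect {K : Type*} [Field K] [Fintype K] (hK : 4 ≤ Fintype.card K) :
    commutator (Matrix.SpecialLinearGroup (Fin 2) K) = ⊤ := by
  classical
  obtain ⟨a, ha0, ha1, ha2⟩ : ∃ a : K, a ≠ 0 ∧ a ≠ 1 ∧ a ≠ -1 := by
    have h1 : ({0, 1, -1} : Finset K).card < Fintype.card K :=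
      lt_of_le_of_lt Finset.card_le_three (by omega)
    obtain ⟨a, ha⟩ := Finset.exists_mem_notMem_of_card_lt_card (s := ({0, 1, -1} : Finset K)) (t := Finset.univ)
      (by rwa [Finset.card_univ])
    have h2 := ha.2
    simp only [Finset.mem_insert, Finset.mem_singleton, not_or] at h2
    exact ⟨a, h2.1, h2.2.1, h2.2.2⟩
  refine Matrix.SL2.commutator_eq_top ha0 ?_
  intro h
  have h3 : (a - 1) * (a + 1) = 0 := by linear_combination h
  rcases mul_eq_zero.1 h3 with h4 | h4
  · exact ha1 (sub_eq_zero.1 h4)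
  · exact ha2 (eq_neg_of_add_eq_zero_left h4)

section

variable {F : Type*} [Field F] [Fintype F] {q : ℕ}

/-- a field with `q` elements -/
theorem exists_field (hF : Fintype.card F = q ^ 2) :
    ∃ (K : Type) (_ : Field K) (_ : Fintype K), Fintype.card K = q := by
  obtain ⟨p, k, hp, -, hk, hk0⟩ := exists_prime_pow hF
  have := Fact.mk hp
  letI : Fintype (GaloisField p k) := Fintype.ofFinite _
  refine ⟨GaloisField p k, inferInstance, inferInstance, ?_⟩
  rw [← Nat.card_eq_fintype_card, GaloisField.card p k hk0.ne', hk]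

theorem comm_two (hF : Fintype.card F = q ^ 2) (hq : 4 ≤ q) : commutator (SU 2 F q) = ⊤ := by
  obtain ⟨K, _, _, hK⟩ := exists_field hF
  obtain ⟨e⟩ := S0281.result hF hK
  exact commutator_top_of_equiv e (sl_perfect (by omega))

/-- `PSU_2(q) = PSL_2(q)` -/
theorem psu_psl (hF : Fintype.card F = q ^ 2) {K : Type*} [Field K] [Fintype K] (hK : Fintype.card K = q) :
    Nonempty (PSU 2 F q ≃* Matrix.ProjectiveSpecialLinearGroup (Fin 2) K) := by
  obtain ⟨e⟩ := S0281.result hF hK
  exact ⟨QuotientGroup.congr (Subgroup.center (SU 2 F q)) (Subgroup.center (Matrix.SpecialLinearGroup (Fin 2) K)) e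
    (map_center_eq e)⟩

theorem simple_two (hF : Fintype.card F = q ^ 2) (hq : 4 ≤ q) : IsSimpleGroup (PSU 2 F q) := by
  obtain ⟨K, _, _, hK⟩ := exists_field hF
  obtain ⟨e⟩ := psu_psl hF hK
  have h1 : IsSimpleGroup (Matrix.ProjectiveSpecialLinearGroup (Fin 2) K) :=
    LieClassical.SLGen.psl_isSimpleGroup_of_perfect (sl_perfect (by omega))
  have : Nontrivial (PSU 2 F q) := e.toEquiv.nontrivial
  exact IsSimpleGroup.isSimpleGroup_of_surjective e.symm.toMonoidHom e.symm.surjective

theorem nc_two (hF : Fintype.card F = q ^ 2) (hq : 4 ≤ q) : ¬ IsMulCommutative (PSU 2 F q) := by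
  have h1 := simple_two hF hq
  have h2 : Nontrivial (PSU 2 F q) := h1.toNontrivial
  apply nc_of_perfect
  have h3 := comm_two hF hq
  have h4 : Subgroup.map (pr 2 F q) (commutator (SU 2 F q)) = commutator (PSU 2 F q) := by
    rw [commutator_def, commutator_def, Subgroup.map_commutator,
      Subgroup.map_top_of_surjective _ (pr_surjective (n := 2) (F := F) (q := q))]
  rw [← h4, h3, Subgroup.map_top_of_surjective _ (pr_surjective (n := 2) (F := F) (q := q))]

theorem rc_two (hF : Fintype.card F = q ^ 2)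
    (h : ∀ (K : Type) [Field K] [Fintype K], Fintype.card K = q →
      H106.RC.RC (Matrix.ProjectiveSpecialLinearGroup (Fin 2) K)) : H106.RC.RC (PSU 2 F q) := by
  obtain ⟨K, _, _, hK⟩ := exists_field hF
  obtain ⟨e⟩ := psu_psl hF hK
  exact (h K hK).congr e.symm

end

end Cfsg.Agent.H452.RC
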