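import Cfsg.Agent.H452.RC.DecMain
import Cfsg.Agent.H452.RC.MAb
import Cfsg.Agent.H452.RC.SUTwo

/-!
# S3510, family E (unitary groups): the general rule DEC (helper452)

* `gdec_main : GDecStmt`.
-/

set_option autoImplicit false
set_option linter.unusedSectionVars false

namespace Cfsg.Agent.H452.RC

open Matrix Cfsg Module Cfsg.Agent.LieClassical.HermBasic Cfsg.Agent.LieClassical.HermSiegel
  Cfsg.Agent.LieClassical.HermGen Cfsg.Agent.LieClassical.SUBasic Cfsg.Agent.ClassicalGeometry.PSUAutBasic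
  Cfsg.Agent.ClassicalGeometry.PSUAutCount Cfsg.Agent.LieClassical.FieldTransfer Cfsg.Agent.ClassicalGeometry
open Cfsg.Agent.H380.RC
open Cfsg.Agent.H189.SN (ON phi Im Im_mulVec phi_Im phi_perp phi_injective pr_phi_injective herm_Im herm_Im_perp
  decomp Im_injective exists_perp)

section iter

variable {F : Type*} [Field F] {m q : ℕ}

theorem sl_surjective (B : GU m F q) (ρ : F ≃+* F) : Function.Surjective (sl B ρ) := by
  intro x
  refine ⟨fun i => ρ.symm ((gm B⁻¹ *ᵥ x) i), ?_⟩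
  rw [sl_def]
  simp only [RingEquiv.apply_symm_apply]
  exact gm_mulVec_inv B x

theorem act_semiConj_pow (B : GU m F q) (ρ : F ≃+* F) (k : ℕ) :
    ∀ (a : SU m F q) (v : Fin m → F), act ((semiConj B ρ ^ k) a) ((sl B ρ)^[k] v) = (sl B ρ)^[k] (act a v) := by
  induction k with
  | zero => intro a v; rfl
  | succ k ih =>
    intro a v
    rw [pow_succ, MulAut.mul_apply, Function.iterate_succ_apply, ih, Function.iterate_succ_apply]
    congr 1
    exact act_semiConj B ρ a v

theorem semiConj_eq_pow {B C : GU m F q} {ρ σ : F ≃+* F} {c : F} {k : ℕ} (h : ∀ v, sl B ρ v = c • (sl C σ)^[k] v)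
    (a : SU m F q) : semiConj B ρ a = (semiConj C σ ^ k) a := by
  apply ext_act
  intro x
  obtain ⟨v, rfl⟩ := sl_surjective B ρ x
  have h1 : act (semiConj B ρ a) (sl B ρ v) = sl B ρ (act a v) := act_semiConj B ρ a v
  rw [h1, h, h, act_smul, act_semiConj_pow]

theorem toAut_pow_pr (B : GU m F q) (ρ : F ≃+* F) (k : ℕ) (a : SU m F q) :
    (toAut B ρ ^ k) (pr m F q a) = pr m F q ((semiConj B ρ ^ k) a) := by
  induction k generalizing a with
  | zero => rfl
  | succ k ih =>
    rw [pow_succ, MulAut.mul_apply, pow_succ, MulAut.mul_apply, ← ih, PSUAutMain.toAut_pr']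

theorem toAut_pow_eq_one [Fintype F] {C : GU m F q} {σ : F ≃+* F} {c : F} {k : ℕ}
    (h : ∀ v, v = c • (sl C σ)^[k] v) : toAut C σ ^ k = 1 := by
  ext s
  obtain ⟨a, rfl⟩ := pr_surjective s
  rw [toAut_pow_pr, MulAut.one_apply]
  have h1 : (semiConj C σ ^ k) a = semiConj (1 : GU m F q) 1 a := by
    symm
    apply semiConj_eq_pow (c := c)
    intro v
    rw [← h v, sl_def, gm_one, one_mulVec]
    rfl
  rw [h1, ← PSUAutMain.toAut_pr', Cfsg.Agent.H189.SN.toAut_one, MulAut.one_apply]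

end iter

section two

variable {F : Type*} [Field F] [Fintype F] {m q : ℕ}

/-- three vectors in a plane, pairwise independent -/
theorem exists_three (hF : Fintype.card F = q ^ 2) :
    ∃ t : Fin 3 → F, Function.Injective t ∧ ∀ i, t i * t i ^ q = -1 := by
  classical
  have h1 := card_norm_eq hF (c := (-1 : F)) (by rw [neg_pow_q hF, one_pow]) (neg_ne_zero.2 one_ne_zero)
  have h2 := two_le hF
  rw [Nat.card_eq_fintype_card] at h1
  have h3 : 2 < Fintype.card {x : F // x * x ^ q = -1} := by omega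
  obtain ⟨a, b, c, hab, hac, hbc⟩ := Fintype.two_lt_card_iff.1 h3
  refine ⟨![a, b, c], ?_, ?_⟩
  · have h1 : (a : F) ≠ b := fun h => hab (Subtype.ext h)
    have h2 : (a : F) ≠ c := fun h => hac (Subtype.ext h)
    have h3 : (b : F) ≠ c := fun h => hbc (Subtype.ext h)
    intro i j h
    fin_cases i <;> fin_cases j <;> simp_all [eq_comm]
  · intro i
    fin_cases i
    · exact a.2
    · exact b.2
    · exact c.2

/-- an element of `GU_2(q)` which centralises `SU_2(q)` is a scalar -/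
theorem scalar_two (hF : Fintype.card F = q ^ 2) {B : GU 2 F q} (hB : ∀ a : SU 2 F q, semiConj B 1 a = a) :
    ∃ c : F, ∀ v, sl B 1 v = c • v := by
  have hadd : ∀ v w, sl B 1 (v + w) = sl B 1 v + sl B 1 w := sl_add B 1
  have hsmul : ∀ (c : F) v, sl B 1 (c • v) = c • sl B 1 v := sl_smul B 1
  obtain ⟨μ, hμ0, hμ⟩ := exists_trace_zero_ne (F := F) (q := q) hF
  -- singular vectors are eigenvectors
  have hsing : ∀ e : Fin 2 → F, e ≠ 0 → hermForm 2 F q e e = 0 → ∃ c : F, sl B 1 e = c • e := by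
    intro e he0 he
    obtain ⟨v, hv⟩ := exists_herm_ne_zero hF he0
    have hv' : hermForm 2 F q v e ≠ 0 := fun h0 => hv (herm_eq_zero_swap hF h0)
    have h1 : act (semiConj B 1 (transv hF e he μ hμ)) (sl B 1 v) = sl B 1 (act (transv hF e he μ hμ) v) :=
      act_semiConj B 1 _ v
    rw [hB, act_transv, act_transv, hadd, hsmul, add_right_inj] at h1
    have h2 : μ * hermForm 2 F q v e ≠ 0 := mul_ne_zero hμ0 hv'
    refine ⟨(μ * hermForm 2 F q v e)⁻¹ * (μ * hermForm 2 F q (sl B 1 v) e), ?_⟩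
    rw [mul_smul, h1, smul_smul, inv_mul_cancel₀ h2, one_smul]
  obtain ⟨t, ht1, ht2⟩ := exists_three hF
  have hv : ∀ i, ∃ c : F, sl B 1 ![1, t i] = c • ![1, t i] := by
    intro i
    apply hsing
    · intro h
      have h1 := congrFun h 0
      exact one_ne_zero h1
    · rw [herm_def, Fin.sum_univ_two]
      show (1 : F) * 1 ^ q + t i * t i ^ q = 0
      rw [ht2, one_pow]
      ring
  choose c hc using hv
  have ht01 : t 0 - t 1 ≠ 0 := sub_ne_zero.2 fun h => by simpa using ht1 h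
  have ht02 : t 0 - t 2 ≠ 0 := sub_ne_zero.2 fun h => by simpa using ht1 h
  have ht12 : t 1 - t 2 ≠ 0 := sub_ne_zero.2 fun h => by simpa using ht1 h
  -- the third vector
  have h3 : (![1, t 2] : Fin 2 → F) = ((t 2 - t 1) * (t 0 - t 1)⁻¹) • ![1, t 0] +
      ((t 0 - t 2) * (t 0 - t 1)⁻¹) • ![1, t 1] := by
    funext i
    fin_cases i
    · show (1 : F) = (t 2 - t 1) * (t 0 - t 1)⁻¹ * 1 + (t 0 - t 2) * (t 0 - t 1)⁻¹ * 1
      field_simp
      ring
    · show t 2 = (t 2 - t 1) * (t 0 - t 1)⁻¹ * t 0 + (t 0 - t 2) * (t 0 - t 1)⁻¹ * t 1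
      field_simp
      ring
  have h4 := hc 2
  rw [h3, hadd, hsmul, hsmul, hc 0, hc 1] at h4
  have e0 := congrFun h4 0
  have e1 := congrFun h4 1
  simp only [Pi.add_apply, Pi.smul_apply, smul_eq_mul, Matrix.cons_val_zero, Matrix.cons_val_one, mul_one] at e0 e1
  have f0 : (t 2 - t 1) * c 0 + (t 0 - t 2) * c 1 = c 2 * (t 0 - t 1) := by
    field_simp at e0
    linear_combination e0
  have f1 : (t 2 - t 1) * (c 0 * t 0) + (t 0 - t 2) * (c 1 * t 1) = c 2 * (t 2 * (t 0 - t 1)) := by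
    field_simp at e1
    linear_combination e1
  have f2 : (t 2 - t 1) * (t 0 - t 2) * (c 0 - c 1) = 0 := by linear_combination f1 - t 2 * f0
  have f3 : c 0 = c 1 := by
    rcases mul_eq_zero.1 f2 with h | h
    · rcases mul_eq_zero.1 h with h | h
      · exact absurd (by linear_combination -h : t 1 - t 2 = 0) ht12
      · exact absurd h ht02
    · exact sub_eq_zero.1 h
  refine ⟨c 0, fun v => ?_⟩
  -- basis
  have h6 : v = ((v 1 - t 1 * v 0) * (t 0 - t 1)⁻¹) • ![1, t 0] + ((t 0 * v 0 - v 1) * (t 0 - t 1)⁻¹) • ![1, t 1] := by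
    funext i
    fin_cases i
    · show v 0 = (v 1 - t 1 * v 0) * (t 0 - t 1)⁻¹ * 1 + (t 0 * v 0 - v 1) * (t 0 - t 1)⁻¹ * 1
      field_simp
      ring
    · show v 1 = (v 1 - t 1 * v 0) * (t 0 - t 1)⁻¹ * t 0 + (t 0 * v 0 - v 1) * (t 0 - t 1)⁻¹ * t 1
      field_simp
      ring
  rw [h6, hadd, hsmul, hsmul, hc, hc, ← f3, smul_add]
  congr 1 <;> rw [smul_comm]

end two

end Cfsg.Agent.H452.RC
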