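import Cfsg.Agent.H510.Tri3.RotDef
import Cfsg.Agent.H253.RC.T3Tools
import Cfsg.Agent.H256.RC.ZBase
import Cfsg.Agent.H452.RC.FMPa

/-!
# S3510, triality type iii, four anisotropic planes: the group part (box Y, helper452)

`exists_y` : `[C, x₁]` contains an element `y ≠ 1` of order `l` which acts on `P 0 ⊔ P 1` as a power of `ρ 0 * ρ 1`.
`B` = the elements of `E Q` of order dividing `l` commuting with the `g i` (`l ^ 4` of them), `x₁` acts on `B`,
`φ b = b x₁ b⁻¹ x₁⁻¹`; by pigeonhole there is `c ≠ 1` in `B`, trivial on two planes whose sum is not closed, so that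
`y = φ c` has the right shape; `φ c ≠ 1` since otherwise `c ∈ AutD`, hence `c = 1`.
-/

set_option autoImplicit false
open Cfsg

namespace Cfsg.Agent.H452.RC.GThree

open Module QuadraticMap MulAction
open Cfsg.Agent.LieClassical.OrthCore Cfsg.Agent.LieClassical.OrthTrans
open Cfsg.Agent.LieClassical.OrthSimple Cfsg.Agent.ClassicalGeometry.OrthSemi
open Cfsg.Agent.ClassicalGeometry.OrthAut1 Cfsg.Agent.H106.RC Cfsg.Agent.H93.RC Cfsg.Agent.H566.RC
open Cfsg.Agent.LieClassical.QuadForms Cfsg.Agent.ClassicalGeometry.TrialityOct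
open Cfsg.Agent.ClassicalGeometry.Triality Cfsg.Agent.ClassicalGeometry.TrialitySpaces
open Cfsg.Agent.H198.TriBase Cfsg.Agent.H198.TriAut Cfsg.Agent.H206.Balance Cfsg.Agent.H198.TriDia
open Cfsg.Agent.H198.TwComp Cfsg.Agent.H198 Cfsg.Agent.H864.RC Cfsg.Agent.H510.Tri3

variable {F : Type} [Field F]

/-! ### the four planes -/

section planes

variable {P : Fin 4 → Submodule F (V8 F)}

theorem finrank8 : finrank F (V8 F) = 8 := by
  rw [Module.finrank_fintype_fun_eq_card]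
  rfl

theorem inf_bot {W U : Submodule F (V8 F)} (hW : FMP.ND (plusForm 4 F) W)
    (ho : ∀ v ∈ U, ∀ w ∈ W, polar (plusForm 4 F) v w = 0) : U ⊓ W = ⊥ := by
  rw [Submodule.eq_bot_iff]
  rintro v ⟨hv, hv'⟩
  exact hW v hv' (fun w hw => ho v hv w hw)

theorem sup_perp {U U' W : Submodule F (V8 F)} (h : ∀ v ∈ U, ∀ w ∈ W, polar (plusForm 4 F) v w = 0)
    (h' : ∀ v ∈ U', ∀ w ∈ W, polar (plusForm 4 F) v w = 0) :
    ∀ v ∈ U ⊔ U', ∀ w ∈ W, polar (plusForm 4 F) v w = 0 := by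
  intro v hv w hw
  obtain ⟨a, ha, b, hb, rfl⟩ := Submodule.mem_sup.1 hv
  rw [polar_add_left, h a ha w hw, h' b hb w hw, add_zero]

variable [Finite F] (two : ∀ k, finrank F (P k) = 2)
  (perp : ∀ k l, k ≠ l → ∀ v ∈ P k, ∀ w ∈ P l, polar (plusForm 4 F) v w = 0)
  (aniso : ∀ k, ∀ v ∈ P k, plusForm 4 F v = 0 → v = 0)

include two aniso perp in
theorem finrank_pair {a b : Fin 4} (hab : a ≠ b) : finrank F (P a ⊔ P b : Submodule F (V8 F)) = 4 := by
  have h1 := Submodule.finrank_sup_add_finrank_inf_eq (P a) (P b)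
  rw [inf_bot (FMP.nd_of_aniso (two b) (aniso b)) (perp a b hab), finrank_bot, two, two, add_zero] at h1
  exact h1

include two aniso perp in
theorem span4 : P 0 ⊔ P 1 ⊔ P 2 ⊔ P 3 = ⊤ := by
  have nd : ∀ k, FMP.ND (plusForm 4 F) (P k) := fun k => FMP.nd_of_aniso (two k) (aniso k)
  have h01 := finrank_pair two perp aniso (a := 0) (b := 1) (by decide)
  have p2 := sup_perp (perp 0 2 (by decide)) (perp 1 2 (by decide))
  have p3 := sup_perp (sup_perp (perp 0 3 (by decide)) (perp 1 3 (by decide))) (perp 2 3 (by decide))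
  have h2 := Submodule.finrank_sup_add_finrank_inf_eq (P 0 ⊔ P 1) (P 2)
  rw [inf_bot (nd 2) p2, finrank_bot, two, h01, add_zero] at h2
  have h3 := Submodule.finrank_sup_add_finrank_inf_eq (P 0 ⊔ P 1 ⊔ P 2) (P 3)
  rw [inf_bot (nd 3) p3, finrank_bot, two, h2, add_zero] at h3
  apply Submodule.eq_top_of_finrank_eq
  rw [h3, finrank8]

include two aniso perp in
/-- two linear maps which agree on the planes are equal -/
theorem ext4 {f f' : V8 F ≃ₗ[F] V8 F} (h : ∀ k, ∀ v ∈ P k, f v = f' v) : f = f' := by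
  have h1 : P 0 ⊔ P 1 ⊔ P 2 ⊔ P 3 ≤ LinearMap.eqLocus (f : V8 F →ₗ[F] V8 F) (f' : V8 F →ₗ[F] V8 F) := by
    refine sup_le (sup_le (sup_le ?_ ?_) ?_) ?_
    · exact fun v hv => h 0 v hv
    · exact fun v hv => h 1 v hv
    · exact fun v hv => h 2 v hv
    · exact fun v hv => h 3 v hv
  rw [span4 two perp aniso] at h1
  ext1 v
  exact h1 (Submodule.mem_top : v ∈ (⊤ : Submodule F (V8 F)))

end planes

/-! ### lifting -/

section lift

variable {G Ω ι : Type} [Group G] [MulAction G Ω] {N : Subgroup G} {hG : Good (plusForm 4 F)}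
  {κ : P8 F →* G} {s : F ≃+* F} {x₁ : G} {x : ι → G} {r : ι → ℕ} {g : ι → (V8 F ≃ₗ[F] V8 F)}

theorem one8_ne : one8 F ≠ 0 := fun h0 => by
  have h6 := norm_one8 (F := F)
  rw [h0, QuadraticMap.map_zero] at h6
  exact zero_ne_one h6

/-- lifts of odd order are unique -/
theorem uniq (hG : Good (plusForm 4 F)) {l : ℕ} (hl : Odd l) {c d : ↥(E (plusForm 4 F))} (hc : c ^ l = 1)
    (hd : d ^ l = 1) (e : (c : P8 F) = (d : P8 F)) : c = d := by
  obtain ⟨k, hk, hv⟩ := sign_of_mk_eq hG e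
  have h1 := pow_of_smul hv l (one8 F)
  have e5 : ((c : V8 F ≃ₗ[F] V8 F) ^ l) = 1 := congrArg Subtype.val hc
  have e6 : ((d : V8 F ≃ₗ[F] V8 F) ^ l) = 1 := congrArg Subtype.val hd
  rw [e5, e6] at h1
  have e7 : one8 F = k ^ l • one8 F := h1
  have e8 : (1 - k ^ l) • one8 F = 0 := by rw [sub_smul, one_smul, ← e7, sub_self]
  have e10 := (smul_eq_zero.1 e8).resolve_right one8_ne
  have hk1 := eq_one_of_odd hk hl (sub_eq_zero.1 e10).symm
  apply Subtype.ext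
  apply LinearEquiv.ext
  intro v
  rw [hv v, hk1, one_smul]

/-- an element of `CN` of odd order `l` has a lift of order `l` commuting with the `g i` -/
theorem exists_lift (h : T3 hG N κ s Ω x₁ x r g) {l : ℕ} (hlodd : Odd l) {y : G} (hy : y ∈ CN N x)
    (hyl : y ^ l = 1) : ∃ c : ↥(E (plusForm 4 F)), c ^ l = 1 ∧
      (∀ i, (c : V8 F ≃ₗ[F] V8 F) * g i = g i * c) ∧ up κ c = y := by
  have hyC := mem_CN.1 hy
  obtain ⟨c0, hc0⟩ := h.exists_up hyC.1
  set z := c0 ^ l with hz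
  have hz1 : ((z : ↥(E (plusForm 4 F))) : P8 F) = ((1 : ↥(E (plusForm 4 F))) : P8 F) := by
    apply h.up_eq
    rw [hz, map_pow, hc0, hyl, map_one]
  obtain ⟨e, he, hev⟩ := sign_of_mk_eq hG hz1.symm
  have hzz : z * z = 1 := by
    apply Subtype.ext
    apply LinearEquiv.ext
    intro v
    change (z : V8 F ≃ₗ[F] V8 F) ((z : V8 F ≃ₗ[F] V8 F) v) = v
    rw [hev, hev]
    change e • e • v = v
    rw [smul_smul, he, one_smul]
  have hzc : z * c0 = c0 * z := by rw [hz, ← pow_succ, ← pow_succ']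
  have hupz : up κ z = 1 := by
    rw [hz, map_pow, hc0, hyl]
  have hup : up κ (c0 * z) = y := by rw [map_mul, hupz, mul_one, hc0]
  have hcl : (c0 * z) ^ l = 1 := by
    rw [(show Commute c0 z from hzc.symm).mul_pow, ← hz]
    obtain ⟨m, hm⟩ := hlodd
    rw [hm, pow_succ, pow_mul, pow_two, hzz, one_pow, one_mul, hzz]
  refine ⟨c0 * z, hcl, ?_, hup⟩
  intro i
  set c := c0 * z with hcdef
  let g' : ↥(E (plusForm 4 F)) := ⟨g i, (h.mem i).1⟩
  have h1 : ((g' * c : ↥(E (plusForm 4 F))) : P8 F) = ((c * g' : ↥(E (plusForm 4 F))) : P8 F) := by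
    apply h.up_eq
    have h2 := hyC.2 i
    rw [h.x_eq] at h2
    rw [map_mul (up κ) g' c, map_mul (up κ) c g', hup]
    exact h2.symm
  obtain ⟨e', he', hev'⟩ := sign_of_mk_eq hG h1
  have h3 : ∀ (n : ℕ) (v : V8 F), ((c : V8 F ≃ₗ[F] V8 F) ^ n) (g i v) = e' ^ n • g i (((c : V8 F ≃ₗ[F] V8 F) ^ n) v) := by
    intro n
    induction n with
    | zero => intro v; rw [pow_zero, pow_zero, one_smul]; rfl
    | succ n ih =>
      intro v
      have h4 : ∀ w, (c : V8 F ≃ₗ[F] V8 F) (g i w) = e' • g i ((c : V8 F ≃ₗ[F] V8 F) w) := hev'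
      rw [pow_succ, LinearEquiv.mul_apply, h4, map_smul, ih, smul_smul, pow_succ', LinearEquiv.mul_apply]
  have h5 := h3 l ((g i).symm (one8 F))
  have h6 : ((c : V8 F ≃ₗ[F] V8 F) ^ l) = 1 := congrArg Subtype.val hcl
  rw [h6] at h5
  have h7 : one8 F = e' ^ l • one8 F := by
    have h8 : g i ((g i).symm (one8 F)) = e' ^ l • g i ((g i).symm (one8 F)) := h5
    rwa [LinearEquiv.apply_symm_apply] at h8
  have e8 : (1 - e' ^ l) • one8 F = 0 := by rw [sub_smul, one_smul, ← h7, sub_self]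
  have e10 := (smul_eq_zero.1 e8).resolve_right one8_ne
  have he1 : e' = 1 := eq_one_of_odd he' hlodd (sub_eq_zero.1 e10).symm
  apply LinearEquiv.ext
  intro v
  have h9 := hev' v
  rw [he1, one_smul] at h9
  exact h9

/-- an element of odd order whose image commutes with `x₁` is in `AutD` -/
theorem mem_AutD_of_comm (h : T3 hG N κ s Ω x₁ x r g) {l : ℕ} (hlodd : Odd l) {c : ↥(E (plusForm 4 F))}
    (hc : c ^ l = 1) (hcm : x₁ * up κ c = up κ c * x₁) : (c : V8 F ≃ₗ[F] V8 F) ∈ AutD (fG s) := by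
  obtain ⟨c', hc', hcD⟩ := h.mem_of_comm c hcm
  have e3 : c' ^ l = 1 := AutD_unique hG (τ := fG s) (by
    rw [Subgroup.coe_pow]
    exact (AutD (fG s)).pow_mem hcD _) ((AutD (fG s)).one_mem) (by
      have e1 : ((c' ^ l : ↥(E (plusForm 4 F))) : P8 F) = ((c ^ l : ↥(E (plusForm 4 F))) : P8 F) := by
        have : ((c' : P8 F)) ^ l = ((c : ↥(E (plusForm 4 F))) : P8 F) ^ l := by rw [hc']
        exact this
      rw [e1, hc])
  rw [← uniq hG hlodd e3 hc hc']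
  exact hcD

end lift

/-! ### box Y -/

section box

variable {G Ω ι : Type} [Group G] [MulAction G Ω] {N : Subgroup G} {hG : Good (plusForm 4 F)}
  {κ : P8 F →* G} {s : F ≃+* F} {x₁ : G} {x : ι → G} {r : ι → ℕ} {g : ι → (V8 F ≃ₗ[F] V8 F)}
  {P : Fin 4 → Submodule F (V8 F)} {l : ℕ} {ρ : Fin 4 → ↥(E (plusForm 4 F))} {τ : F}

/-- order dividing `l`, commuting with the `g i` -/
def InB (g : ι → (V8 F ≃ₗ[F] V8 F)) (l : ℕ) (c : ↥(E (plusForm 4 F))) : Prop :=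
  c ^ l = 1 ∧ ∀ i, (c : V8 F ≃ₗ[F] V8 F) * g i = g i * c

/-- `c` acts on `P k` as `ρ k ^ n` -/
def Ex (P : Fin 4 → Submodule F (V8 F)) (ρ : Fin 4 → ↥(E (plusForm 4 F))) (k : Fin 4) (c : ↥(E (plusForm 4 F)))
    (n : ℕ) : Prop :=
  ∀ v ∈ P k, (c : V8 F ≃ₗ[F] V8 F) v = ((ρ k ^ n : ↥(E (plusForm 4 F))) : V8 F ≃ₗ[F] V8 F) v

theorem rho_pow_mem (hρ : Rot P l τ ρ) (k j : Fin 4) (n : ℕ) {v : V8 F} (hv : v ∈ P j) :
    ((ρ k ^ n : ↥(E (plusForm 4 F))) : V8 F ≃ₗ[F] V8 F) v ∈ P j := by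
  induction n with
  | zero => rw [pow_zero]; exact hv
  | succ n ih =>
    rw [pow_succ']
    change (ρ k : V8 F ≃ₗ[F] V8 F) (((ρ k ^ n : ↥(E (plusForm 4 F))) : V8 F ≃ₗ[F] V8 F) v) ∈ P j
    by_cases hjk : j = k
    · subst hjk
      exact hρ.inv j _ ih
    · rw [hρ.triv k j hjk _ ih]
      exact ih

theorem rho_pow_triv (hρ : Rot P l τ ρ) {k j : Fin 4} (hjk : j ≠ k) (n : ℕ) {v : V8 F} (hv : v ∈ P j) :
    ((ρ k ^ n : ↥(E (plusForm 4 F))) : V8 F ≃ₗ[F] V8 F) v = v := by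
  induction n with
  | zero => rw [pow_zero]; rfl
  | succ n ih =>
    rw [pow_succ']
    change (ρ k : V8 F ≃ₗ[F] V8 F) (((ρ k ^ n : ↥(E (plusForm 4 F))) : V8 F ≃ₗ[F] V8 F) v) = v
    rw [ih, hρ.triv k j hjk v hv]

theorem Ex.mul (hρ : Rot P l τ ρ) {k : Fin 4} {c d : ↥(E (plusForm 4 F))} {m n : ℕ} (hc : Ex P ρ k c m)
    (hd : Ex P ρ k d n) : Ex P ρ k (c * d) (m + n) := by
  intro v hv
  change (c : V8 F ≃ₗ[F] V8 F) ((d : V8 F ≃ₗ[F] V8 F) v) = _
  rw [hd v hv, hc _ (rho_pow_mem hρ k k n hv), pow_add]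
  rfl

theorem Ex.congr (hρ : Rot P l τ ρ) {k : Fin 4} {c : ↥(E (plusForm 4 F))} {m n : ℕ} (hc : Ex P ρ k c m)
    (hmn : m ≡ n [MOD l]) : Ex P ρ k c n := by
  have h1 : ρ k ^ m = ρ k ^ n := by
    rw [pow_eq_pow_iff_modEq]
    exact hmn.of_dvd (orderOf_dvd_of_pow_eq_one (hρ.pow k))
  intro v hv
  rw [hc v hv, h1]

theorem Ex.unique (two : ∀ k, finrank F (P k) = 2) (hl : l.Prime) (hρ : Rot P l τ ρ) {k : Fin 4}
    {c : ↥(E (plusForm 4 F))} {m n : ℕ} (hc : Ex P ρ k c m) (hd : Ex P ρ k c n) : m ≡ n [MOD l] := by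
  have := Fact.mk hl
  -- `ρ k` has order `l` on `P k`
  have key : ∀ d : ℕ, (∀ v ∈ P k, ((ρ k ^ d : ↥(E (plusForm 4 F))) : V8 F ≃ₗ[F] V8 F) v = v) → l ∣ d := by
    intro d hd
    by_contra hnd
    obtain ⟨v, hv, hv0⟩ : ∃ v ∈ P k, v ≠ 0 := by
      by_contra hc
      push Not at hc
      have : P k = ⊥ := by rw [Submodule.eq_bot_iff]; exact hc
      have h3 := two k
      rw [this, finrank_bot] at h3
      omega
    apply hv0
    apply hρ.ne k v hv 1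
    rw [one_smul]
    -- `d * e ≡ 1`
    have hcop : Nat.Coprime d l := (Nat.Coprime.symm ((Nat.Prime.coprime_iff_not_dvd hl).2 hnd))
    obtain ⟨e, -, he⟩ := Nat.exists_mul_mod_eq_one_of_coprime hcop hl.one_lt
    have h1 : ρ k ^ (d * e) = ρ k := by
      conv_rhs => rw [← pow_one (ρ k)]
      rw [pow_eq_pow_iff_modEq]
      refine Nat.ModEq.of_dvd (orderOf_dvd_of_pow_eq_one (hρ.pow k)) ?_
      show d * e % l = 1 % l
      rw [he, Nat.mod_eq_of_lt hl.one_lt]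
    have h2 : ∀ e : ℕ, (((ρ k ^ d) ^ e : ↥(E (plusForm 4 F))) : V8 F ≃ₗ[F] V8 F) v = v := by
      intro e
      induction e with
      | zero => rw [pow_zero]; rfl
      | succ e ih =>
        rw [pow_succ]
        change (((ρ k ^ d) ^ e : ↥(E (plusForm 4 F))) : V8 F ≃ₗ[F] V8 F)
          (((ρ k ^ d : ↥(E (plusForm 4 F))) : V8 F ≃ₗ[F] V8 F) v) = v
        rw [hd v hv, ih]
    have h3 := h2 e
    rw [← pow_mul, h1] at h3
    exact h3
  have hwlog : ∀ m n : ℕ, m ≤ n → Ex P ρ k c m → Ex P ρ k c n → m ≡ n [MOD l] := by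
    intro m n hmn hc hd
    rw [Nat.modEq_iff_dvd' hmn]
    apply key
    intro v hv
    have h1 := hd v hv
    rw [hc v hv, ← Nat.sub_add_cancel hmn, add_comm, pow_add] at h1
    have h2 : ((ρ k ^ m : ↥(E (plusForm 4 F))) : V8 F ≃ₗ[F] V8 F) v =
      ((ρ k ^ m : ↥(E (plusForm 4 F))) : V8 F ≃ₗ[F] V8 F)
        (((ρ k ^ (n - m) : ↥(E (plusForm 4 F))) : V8 F ≃ₗ[F] V8 F) v) := h1
    exact ((LinearEquiv.injective _ h2)).symm
  rcases le_total m n with h | h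
  · exact hwlog m n h hc hd
  · exact (hwlog n m h hd hc).symm

theorem InB.exists_ex (hP : G3 g P) (hl : l.Prime) (hl2 : l ≠ 2) (hlF : (l : F) ≠ 0) (hρ : Rot P l τ ρ)
    {c : ↥(E (plusForm 4 F))} (hc : InB g l c) (k : Fin 4) : ∃ n : ℕ, Ex P ρ k c n := by
  have hcl : (c : V8 F ≃ₗ[F] V8 F) ^ l = 1 := congrArg Subtype.val hc.1
  have h1 := hP.pres c c.2 hc.2 l 1 hl hl2 hlF (by rw [pow_one]; exact hcl)
  exact hρ.gen c (E_le_O c.2) hcl h1 k

theorem Ex.comm [Finite F] (hP : G3 g P) (hρ : Rot P l τ ρ) {c d : ↥(E (plusForm 4 F))}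
    (hc : ∀ k, ∃ n, Ex P ρ k c n) (hd : ∀ k, ∃ n, Ex P ρ k d n) : c * d = d * c := by
  apply Subtype.ext
  apply ext4 hP.two hP.perp hP.aniso
  intro k v hv
  obtain ⟨m, hm⟩ := hc k
  obtain ⟨n, hn⟩ := hd k
  rw [hm.mul hρ hn v hv, hn.mul hρ hm v hv, add_comm]

theorem rho_inB [Finite F] (h : T3 hG N κ s Ω x₁ x r g) (hP : G3 g P)
    (hrp : ∀ i, (r i : F) ≠ 0) (hrot : ∀ k i, ∃ t : F, ∀ v ∈ P k, g i (g i v) + v = t • g i v)
    (hρ : Rot P l τ ρ) (k : Fin 4) : InB g l (ρ k) := by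
  refine ⟨hρ.pow k, fun i => ?_⟩
  apply ext4 hP.two hP.perp hP.aniso
  intro j v hv
  change (ρ k : V8 F ≃ₗ[F] V8 F) (g i v) = g i ((ρ k : V8 F ≃ₗ[F] V8 F) v)
  by_cases hjk : j = k
  · subst hjk
    obtain ⟨t, ht⟩ := hrot j i
    exact (hρ.comm j t (r i) (hrp i) (g i) (E_le_O (h.mem i).1) (h.pow i) (hP.inv j i) ht v hv).symm
  · rw [hρ.triv k j hjk v hv, hρ.triv k j hjk _ (hP.inv j i v hv)]

theorem InB.mul [Finite F] (hP : G3 g P) (hl : l.Prime) (hl2 : l ≠ 2) (hlF : (l : F) ≠ 0) (hρ : Rot P l τ ρ)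
    {c d : ↥(E (plusForm 4 F))} (hc : InB g l c) (hd : InB g l d) : InB g l (c * d) := by
  have hcd : Commute c d := Ex.comm hP hρ (fun k => hc.exists_ex hP hl hl2 hlF hρ k)
    (fun k => hd.exists_ex hP hl hl2 hlF hρ k)
  refine ⟨by rw [hcd.mul_pow, hc.1, hd.1, one_mul], fun i => ?_⟩
  rw [Subgroup.coe_mul, mul_assoc, hd.2, ← mul_assoc, hc.2, mul_assoc]

theorem InB.inv {c : ↥(E (plusForm 4 F))} (hc : InB g l c) : InB g l c⁻¹ := by
  refine ⟨by rw [inv_pow, hc.1, inv_one], fun i => ?_⟩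
  rw [Subgroup.coe_inv, inv_mul_eq_iff_eq_mul, ← mul_assoc, hc.2, mul_inv_cancel_right]

theorem InB.one : InB g l (1 : ↥(E (plusForm 4 F))) :=
  ⟨one_pow l, fun i => by rw [Subgroup.coe_one, one_mul, mul_one]⟩

theorem InB.pow [Finite F] (hP : G3 g P) (hl : l.Prime) (hl2 : l ≠ 2) (hlF : (l : F) ≠ 0) (hρ : Rot P l τ ρ)
    {c : ↥(E (plusForm 4 F))} (hc : InB g l c) (n : ℕ) : InB g l (c ^ n) := by
  induction n with
  | zero => rw [pow_zero]; exact InB.one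
  | succ n ih => rw [pow_succ]; exact ih.mul hP hl hl2 hlF hρ hc

theorem InB.ex_inv (hρ : Rot P l τ ρ) (hl : l.Prime) {k : Fin 4}
    {c : ↥(E (plusForm 4 F))} {n : ℕ} (hc : Ex P ρ k c n) : Ex P ρ k c⁻¹ ((l - 1) * n) := by
  intro v hv
  have h1 := rho_pow_mem hρ k k ((l - 1) * n) hv
  have h2 := hc _ h1
  have h3 : ρ k ^ n * ρ k ^ ((l - 1) * n) = 1 := by
    rw [← pow_add]
    have : n + (l - 1) * n = l * n := by
      obtain ⟨m, rfl⟩ : ∃ m, l = m + 1 := ⟨l - 1, by have := hl.pos; omega⟩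
      rw [Nat.add_sub_cancel]; ring
    rw [this, pow_mul, hρ.pow, one_pow]
  have h4 : ((ρ k ^ n : ↥(E (plusForm 4 F))) : V8 F ≃ₗ[F] V8 F)
      (((ρ k ^ ((l - 1) * n) : ↥(E (plusForm 4 F))) : V8 F ≃ₗ[F] V8 F) v) = v := by
    have h5 := congrArg (fun z : ↥(E (plusForm 4 F)) => (z : V8 F ≃ₗ[F] V8 F) v) h3
    exact h5
  rw [h4] at h2
  change (c : V8 F ≃ₗ[F] V8 F).symm v = _
  rw [LinearEquiv.symm_apply_eq]
  exact h2.symm

/-- the product of powers of the rotations -/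
def pr (ρ : Fin 4 → ↥(E (plusForm 4 F))) (a : Fin 4 → ℕ) : ↥(E (plusForm 4 F)) :=
  ρ 0 ^ a 0 * ρ 1 ^ a 1 * ρ 2 ^ a 2 * ρ 3 ^ a 3

theorem rho_ex (hρ : Rot P l τ ρ) (k j : Fin 4) (n : ℕ) : Ex P ρ j (ρ k ^ n) (if j = k then n else 0) := by
  intro v hv
  by_cases hjk : j = k
  · subst hjk; rw [if_pos rfl]
  · rw [if_neg hjk, rho_pow_triv hρ hjk n hv, pow_zero]; rfl

theorem pr_ex (hρ : Rot P l τ ρ) (a : Fin 4 → ℕ) (k : Fin 4) : Ex P ρ k (pr ρ a) (a k) := by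
  have h := (((rho_ex hρ 0 k (a 0)).mul hρ (rho_ex hρ 1 k (a 1))).mul hρ (rho_ex hρ 2 k (a 2))).mul hρ
    (rho_ex hρ 3 k (a 3))
  have e : (if k = 0 then a 0 else 0) + (if k = 1 then a 1 else 0) + (if k = 2 then a 2 else 0) +
      (if k = 3 then a 3 else 0) = a k := by
    fin_cases k <;> simp
  rw [e] at h
  exact h

/-- the action of `x₁` on `B` -/
theorem exists_beta [Finite F] (h : T3 hG N κ s Ω x₁ x r g) (hlodd : Odd l) {b : ↥(E (plusForm 4 F))}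
    (hb : InB g l b) : ∃ c : ↥(E (plusForm 4 F)), InB g l c ∧ up κ c = x₁ * up κ b * x₁⁻¹ := by
  have h1 : x₁ * up κ b * x₁⁻¹ ∈ CN N x := h.conj_CN _ (h.up_mem_CN hb.2)
  have h2 : (x₁ * up κ b * x₁⁻¹) ^ l = 1 := by
    rw [conj_pow, ← map_pow, hb.1, map_one, mul_one, mul_inv_cancel]
  obtain ⟨c, hc1, hc2, hc3⟩ := exists_lift h hlodd h1 h2
  exact ⟨c, ⟨hc1, hc2⟩, hc3⟩

/-- **BOX Y**: the element `y` of `[C, x₁]`. -/
theorem exists_y [Finite F] [Finite G] [Finite ι] (h : T3 hG N κ s Ω x₁ x r g)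
    (hP : G3 g P) (hrp : ∀ i, (r i : F) ≠ 0)
    (hrot : ∀ k i, ∃ t : F, ∀ v ∈ P k, g i (g i v) + v = t • g i v) (hl : l.Prime) (hl2 : l ≠ 2) (hlF : (l : F) ≠ 0) (hρ : Rot P l τ ρ) :
    ∃ y : ↥(E (plusForm 4 F)), y ^ l = 1 ∧ y ≠ 1 ∧ up κ y ∈ comC (CN N x) x₁ ∧
      (∀ i, (y : V8 F ≃ₗ[F] V8 F) * g i = g i * y) ∧
      ∃ n : ℕ, ∀ v ∈ P 0 ⊔ P 1, (y : V8 F ≃ₗ[F] V8 F) v =
        (((ρ 0 * ρ 1) ^ n : ↥(E (plusForm 4 F))) : V8 F ≃ₗ[F] V8 F) v := by
  classical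
  have hlodd : Odd l := hl.odd_of_ne_two hl2
  have hlpos := hl.pos
  haveI : NeZero l := ⟨hl.ne_zero⟩
  -- the pair which is not closed
  obtain ⟨A, A', hAA, hcl⟩ := FMP.exists_not_closed (σ := s) (m := dia (fG s))
    (fun u w => H256.RC.dia_norm u w) (H256.RC.dia_polar h.cube) P hP.two hP.perp hP.aniso
  -- the commutator map on `B`
  have hphi : ∀ b : ↥(E (plusForm 4 F)), ∃ c : ↥(E (plusForm 4 F)), InB g l b →
      InB g l c ∧ up κ c = up κ b * x₁ * (up κ b)⁻¹ * x₁⁻¹ := by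
    intro b
    by_cases hb : InB g l b
    · obtain ⟨c, hc, hc'⟩ := exists_beta h hlodd hb.inv
      refine ⟨b * c, fun _ => ⟨hb.mul hP hl hl2 hlF hρ hc, ?_⟩⟩
      rw [map_mul, hc', map_inv]
      group
    · exact ⟨1, fun hb' => (hb hb').elim⟩
  choose φ hφ using hphi
  -- exponents
  have hexp : ∀ (c : ↥(E (plusForm 4 F))) (k : Fin 4), ∃ n : ℕ, InB g l c → Ex P ρ k c n := by
    intro c k
    by_cases hc : InB g l c
    · obtain ⟨n, hn⟩ := hc.exists_ex hP hl hl2 hlF hρ k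
      exact ⟨n, fun _ => hn⟩
    · exact ⟨0, fun hc' => (hc hc').elim⟩
  choose e he using hexp
  let pa : (Fin 4 → Fin l) → ↥(E (plusForm 4 F)) := fun a => pr ρ (fun k => (a k : ℕ))
  have hpa : ∀ a, InB g l (pa a) := by
    intro a
    have hr := fun k => (rho_inB h hP hrp hrot hρ k).pow hP hl hl2 hlF hρ (a k : ℕ)
    exact (((hr 0).mul hP hl hl2 hlF hρ (hr 1)).mul hP hl hl2 hlF hρ (hr 2)).mul hP hl hl2 hlF hρ (hr 3)
  let f : (Fin 4 → Fin l) → Fin l × Fin l × Fin l := fun a =>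
    (a A, a A', ⟨(e (φ (pa a)) 0 + (l - 1) * e (φ (pa a)) 1) % l, Nat.mod_lt _ hlpos⟩)
  have hninj : ¬ Function.Injective f := by
    intro hf
    have h1 := Fintype.card_le_of_injective f hf
    rw [Fintype.card_prod, Fintype.card_prod, Fintype.card_fin, Fintype.card_fun, Fintype.card_fin,
      Fintype.card_fin] at h1
    have h2 : l * (l * l) = l ^ 3 := by ring
    rw [h2] at h1
    have h3 : l ^ 3 < l ^ 4 := Nat.pow_lt_pow_right hl.one_lt (by norm_num)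
    omega
  rw [Function.Injective] at hninj
  push Not at hninj
  obtain ⟨a, b, hab, hne⟩ := hninj
  have hA : a A = b A := congrArg Prod.fst hab
  have hA' : a A' = b A' := congrArg (fun z => z.2.1) hab
  have h3 : (e (φ (pa a)) 0 + (l - 1) * e (φ (pa a)) 1) % l = (e (φ (pa b)) 0 + (l - 1) * e (φ (pa b)) 1) % l :=
    congrArg (fun z : Fin l × Fin l × Fin l => (z.2.2 : ℕ)) hab
  -- the element `c`
  set c := pa a * (pa b)⁻¹ with hc
  have hcB : InB g l c := (hpa a).mul hP hl hl2 hlF hρ (hpa b).inv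
  have hφa := hφ _ (hpa a)
  have hφb := hφ _ (hpa b)
  set y := φ (pa a) * (φ (pa b))⁻¹ with hy
  have hyB : InB g l y := hφa.1.mul hP hl hl2 hlF hρ hφb.1.inv
  -- `y` is the commutator of `c`
  have hcomm : ∀ c d : ↥(E (plusForm 4 F)), InB g l c → InB g l d → c * d = d * c := fun c d hc hd =>
    Ex.comm hP hρ (fun k => hc.exists_ex hP hl hl2 hlF hρ k) (fun k => hd.exists_ex hP hl hl2 hlF hρ k)
  have hup : up κ y = up κ c * x₁ * (up κ c)⁻¹ * x₁⁻¹ := by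
    obtain ⟨ba, hba, hba'⟩ := exists_beta h hlodd (hpa a).inv
    obtain ⟨bb, hbb, hbb'⟩ := exists_beta h hlodd (hpa b)
    have e1 : up κ (φ (pa a)) = up κ (pa a * ba) := by
      rw [hφa.2, map_mul, hba', map_inv]; group
    have e2 : (up κ (φ (pa b)))⁻¹ = up κ (bb * (pa b)⁻¹) := by
      rw [hφb.2, map_mul, hbb', map_inv]; group
    have e3 : up κ c * x₁ * (up κ c)⁻¹ * x₁⁻¹ = up κ (pa a * (pa b)⁻¹ * (bb * ba)) := by
      have e4 : up κ (bb * ba) = x₁ * up κ (pa b) * x₁⁻¹ * (x₁ * (up κ (pa a))⁻¹ * x₁⁻¹) := by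
        rw [map_mul, hbb', hba', map_inv]
      have e5 : up κ (pa a * (pa b)⁻¹ * (bb * ba)) = up κ (pa a) * (up κ (pa b))⁻¹ * up κ (bb * ba) := by
        rw [map_mul, map_mul, map_inv]
      rw [hc, map_mul, map_inv, e5, e4]; group
    rw [hy, map_mul, map_inv, e1, e2, e3, ← map_mul]
    congr 1
    have c1 := hcomm ba (bb * (pa b)⁻¹) hba (hbb.mul hP hl hl2 hlF hρ (hpa b).inv)
    have c2 := hcomm bb (pa b)⁻¹ hbb (hpa b).inv
    calc pa a * ba * (bb * (pa b)⁻¹) = pa a * (ba * (bb * (pa b)⁻¹)) := by group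
      _ = pa a * (bb * (pa b)⁻¹ * ba) := by rw [c1]
      _ = pa a * ((pa b)⁻¹ * bb * ba) := by rw [c2]
      _ = _ := by group
  refine ⟨y, hyB.1, ?_, ?_, hyB.2, ?_⟩
  · -- `y ≠ 1`
    intro hy1
    rw [hy1, map_one] at hup
    have hcm : x₁ * up κ c = up κ c * x₁ := by
      have h5 : up κ c * x₁ * (up κ c)⁻¹ = x₁ := by
        have := hup.symm
        rwa [mul_inv_eq_one] at this
      rw [mul_inv_eq_iff_eq_mul] at h5
      exact h5.symm
    have hcD := mem_AutD_of_comm h hlodd hcB.1 hcm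
    have hc1 : (c : V8 F ≃ₗ[F] V8 F) = 1 := by
      refine FMP.eq_one_of_fix (Q := plusForm 4 F) (σ := s) (m := dia (fG s)) (n := l)
        (W := P A ⊔ P A') finrank8 (H256.RC.tc_fG h.cube) (H256.RC.dia_polar h.cube)
        (Cfsg.Agent.ClassicalGeometry.Triality.nondeg8 (F := F)) (fun u v => H256.RC.AutD_polar hcD u v)
        (fun u w => hcD.2 u w) hlF (congrArg Subtype.val hcB.1)
        (finrank_pair hP.two hP.perp hP.aniso hAA).ge hcl ?_
      have hfx : ∀ k, a k = b k → ∀ v ∈ P k, (c : V8 F ≃ₗ[F] V8 F) v = v := by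
        intro k hk v hv
        have h6 := (pr_ex hρ (fun k => (a k : ℕ)) k).mul hρ
          (InB.ex_inv hρ hl (pr_ex hρ (fun k => (b k : ℕ)) k)) v hv
        have h7 : (a k : ℕ) + (l - 1) * (b k : ℕ) = l * (b k : ℕ) := by
          rw [hk]
          obtain ⟨m, hm⟩ : ∃ m, l = m + 1 := ⟨l - 1, by omega⟩
          have : l - 1 = m := by omega
          rw [this]
          calc (b k : ℕ) + m * (b k : ℕ) = (m + 1) * (b k : ℕ) := by ring
            _ = l * (b k : ℕ) := by rw [← hm]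
        have h8 : (c : V8 F ≃ₗ[F] V8 F) v = ((ρ k ^ (l * (b k : ℕ)) : ↥(E (plusForm 4 F))) : V8 F ≃ₗ[F] V8 F) v := by
          rw [← h7]
          exact h6
        rw [h8, pow_mul, hρ.pow, one_pow]
        rfl
      intro v hv
      obtain ⟨v1, hv1, v2, hv2, rfl⟩ := Submodule.mem_sup.1 hv
      rw [map_add, hfx A hA v1 hv1, hfx A' hA' v2 hv2]
    apply hne
    have hc2 : pa a = pa b := by
      have : c = 1 := Subtype.ext hc1
      rw [hc] at this
      exact mul_inv_eq_one.1 this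
    funext k
    have h9 : Ex P ρ k (pa a) (a k : ℕ) := pr_ex hρ (fun k => (a k : ℕ)) k
    have h10 : Ex P ρ k (pa a) (b k : ℕ) := by
      rw [hc2]
      exact pr_ex hρ (fun k => (b k : ℕ)) k
    have h11 := Ex.unique hP.two hl hρ h9 h10
    apply Fin.ext
    have h12 : (a k : ℕ) % l = (b k : ℕ) % l := h11
    rwa [Nat.mod_eq_of_lt (a k).2, Nat.mod_eq_of_lt (b k).2] at h12
  · rw [hup]
    exact cm_mem_comC (h.up_mem_CN hcB.2)
  · -- shape
    have hy0 := (he _ 0 hφa.1).mul hρ (InB.ex_inv hρ hl (he _ 0 hφb.1))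
    have hy1 := (he _ 1 hφa.1).mul hρ (InB.ex_inv hρ hl (he _ 1 hφb.1))
    set u0 := e (φ (pa a)) 0
    set u1 := e (φ (pa a)) 1
    set w0 := e (φ (pa b)) 0
    set w1 := e (φ (pa b)) 1
    have hmod : u1 + (l - 1) * w1 ≡ u0 + (l - 1) * w0 [MOD l] := by
      rw [← ZMod.natCast_eq_natCast_iff]
      have hz := (ZMod.natCast_eq_natCast_iff _ _ _).2 h3
      have hl1 : ((l - 1 : ℕ) : ZMod l) = -1 := by
        rw [Nat.cast_sub hl.one_lt.le, ZMod.natCast_self, Nat.cast_one, zero_sub]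
      push_cast at hz ⊢
      rw [hl1] at hz ⊢
      linear_combination -hz
    have hy1' := hy1.congr hρ hmod
    refine ⟨u0 + (l - 1) * w0, ?_⟩
    set n := u0 + (l - 1) * w0
    have hc01 : Commute (ρ 0) (ρ 1) := hcomm _ _ (rho_inB h hP hrp hrot hρ 0) (rho_inB h hP hrp hrot hρ 1)
    have hE0 : Ex P ρ 0 ((ρ 0 * ρ 1) ^ n) n := by
      rw [hc01.mul_pow]
      have := (rho_ex hρ 0 0 n).mul hρ (rho_ex hρ 1 0 n)
      simpa using this
    have hE1 : Ex P ρ 1 ((ρ 0 * ρ 1) ^ n) n := by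
      rw [hc01.mul_pow]
      have := (rho_ex hρ 0 1 n).mul hρ (rho_ex hρ 1 1 n)
      simpa using this
    intro v hv
    obtain ⟨v1, hv1, v2, hv2, rfl⟩ := Submodule.mem_sup.1 hv
    rw [map_add, map_add, hE0 v1 hv1, hE1 v2 hv2]
    rw [show (y : V8 F ≃ₗ[F] V8 F) v1 = _ from hy0 v1 hv1, show (y : V8 F ≃ₗ[F] V8 F) v2 = _ from hy1' v2 hv2]

end box

end Cfsg.Agent.H452.RC.GThree
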