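import Cfsg.Agent.H380.RC.Point
import Cfsg.Agent.H380.RC.MAb

/-!
# S3510, family E: conjugates of a homomorphism `P →* SU`; commuting modulo the centre (helper452)

* `exists_conj_hom` : `f (act (κ p) v) = act (S p) (f v)` with a homomorphism `S`;
* `lift_comm` : `P` perfect, `x` commutes with all `el (κ p)` : the lift `f` commutes with all `act (κ p)`.
-/

set_option autoImplicit false
set_option linter.unusedSectionVars false

namespace Cfsg.Agent.H452.RC

open Matrix Cfsg Module Cfsg.Agent.LieClassical.HermBasic Cfsg.Agent.LieClassical.HermSiegel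
open Cfsg.Agent.H380.RC
open scoped commutatorElement

theorem comm_central {H : Type*} [Group H] {z w : H} (hz : z ∈ Subgroup.center H) (hw : w ∈ Subgroup.center H)
    (u v : H) : ⁅z * u, w * v⁆ = ⁅u, v⁆ := by
  rw [Subgroup.mem_center_iff] at hz hw
  rw [commutatorElement_def, commutatorElement_def]
  calc z * u * (w * v) * (z * u)⁻¹ * (w * v)⁻¹ = z * (u * w) * v * u⁻¹ * z⁻¹ * v⁻¹ * w⁻¹ := by group
    _ = z * (w * u) * v * u⁻¹ * z⁻¹ * v⁻¹ * w⁻¹ := by rw [hw u]
    _ = (z * (w * (u * v * u⁻¹))) * z⁻¹ * v⁻¹ * w⁻¹ := by group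
    _ = ((w * (u * v * u⁻¹)) * z) * z⁻¹ * v⁻¹ * w⁻¹ := by rw [hz (w * (u * v * u⁻¹))]
    _ = (w * (u * v * u⁻¹ * v⁻¹)) * w⁻¹ := by group
    _ = ((u * v * u⁻¹ * v⁻¹) * w) * w⁻¹ := by rw [hw (u * v * u⁻¹ * v⁻¹)]
    _ = u * v * u⁻¹ * v⁻¹ := by group

variable {G Ω : Type*} [Group G] [MulAction G Ω] {N : Subgroup G} {F : Type*} [Field F] [Fintype F] {n q : ℕ}
  {U : UEnv G Ω N F n q} {P : Type*} [Group P]

/-- the conjugate of a homomorphism to `SU` -/
theorem exists_conj_hom (κ : P →* SU n F q) {x : G} {f : (Fin n → F) → (Fin n → F)} (hx : U.Lft x f) :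
    ∃ S : P →* SU n F q, ∀ p v, f (act (κ p) v) = act (S p) (f v) := by
  choose s hs using fun p => hx.exists_conj (κ p)
  have hsur := Ind.surjective hx
  refine ⟨{ toFun := s, map_one' := ?_, map_mul' := ?_ }, hs⟩
  · apply ext_act
    intro v
    obtain ⟨w, rfl⟩ := hsur v
    rw [← hs, map_one, act_one, act_one]
  · intro p p'
    apply ext_act
    intro v
    obtain ⟨w, rfl⟩ := hsur v
    rw [← hs, map_mul, act_mul, act_mul, ← hs p', ← hs p]

/-- an element commuting with the image of a perfect group modulo scalars commutes with it -/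
theorem lift_comm (hP : ⁅(⊤ : Subgroup P), (⊤ : Subgroup P)⁆ = ⊤) (κ : P →* SU n F q) {x : G}
    {f : (Fin n → F) → (Fin n → F)} (hx : U.Lft x f) (hc : ∀ p, x * U.el (κ p) = U.el (κ p) * x) (p : P)
    (v : Fin n → F) : f (act (κ p) v) = act (κ p) (f v) := by
  obtain ⟨S, hS⟩ := exists_conj_hom κ hx
  have h1 : ∀ p, ∃ z ∈ Subgroup.center (SU n F q), S p = z * κ p := by
    intro p
    have h2 := hx.conj_el (hS p)
    rw [hc, mul_inv_cancel_right] at h2
    refine ⟨S p * (κ p)⁻¹, ?_, by group⟩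
    rw [← U.el_eq_one, map_mul, map_inv, ← h2, mul_inv_cancel]
  have h3 : (⊤ : Subgroup P) ≤ MonoidHom.eqLocus S κ := by
    rw [← hP, Subgroup.commutator_le]
    intro a _ b _
    obtain ⟨z, hz, hza⟩ := h1 a
    obtain ⟨w, hw, hwb⟩ := h1 b
    show S ⁅a, b⁆ = κ ⁅a, b⁆
    rw [map_commutatorElement, map_commutatorElement, hza, hwb]
    exact comm_central hz hw _ _
  have h4 : S p = κ p := h3 (Subgroup.mem_top p)
  have h5 := hS p v
  rwa [h4] at h5

end Cfsg.Agent.H452.RC
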